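import Cfsg.Agent.StrongClosure34.Puig
import Cfsg.Agent.TwoGroup.UniqueInvolution

/-!
A Sylow 2-subgroup of the normalizer of a quaternion subgroup, lying in the commutator subgroup of
the normalizer times the quaternion group, acts on it by inner automorphisms.
-/

set_option autoImplicit false

namespace CfsgLib.StrongClosure34

open Cfsg CfsgLib.TwoGroup
open scoped commutatorElement

variable {G : Type*} [Group G]

/-- An element centralising two generators centralises the generated set. -/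
theorem mem_centralizer_of_two {S : Subgroup G} {a y w : G}
    (hcov : ∀ x ∈ S, ∃ b ∈ Subgroup.zpowers a, x = b ∨ x = b * y)
    (ha : w * a = a * w) (hy : w * y = y * w) : w ∈ Subgroup.centralizer (S : Set G) := by
  refine Subgroup.mem_centralizer_iff.2 fun x hx => ?_
  obtain ⟨b, hb, rfl | rfl⟩ := hcov x hx <;> obtain ⟨k, rfl⟩ := Subgroup.mem_zpowers_iff.1 hb
  · exact ((show Commute a w from ha.symm).zpow_left k).eq
  · exact (((show Commute a w from ha.symm).zpow_left k).mul_left hy.symm).eq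

/-- An alternating permutation of at most three points of 2-power order is trivial. -/
theorem perm_eq_one_of_sign {α : Type*} [Finite α] [DecidableEq α] [Fintype α]
    (h : Nat.card α ≤ 3) {σ : Equiv.Perm α} (hsign : Equiv.Perm.sign σ = 1) {k : ℕ}
    (hk : σ ^ 2 ^ k = 1) : σ = 1 := by
  have h3 : ∀ m : ℕ, m ≤ 3 → ∀ τ : Equiv.Perm (Fin m), Equiv.Perm.sign τ = 1 → τ ^ 3 = 1 := by
    intro m hm
    interval_cases m <;> decide
  let e : α ≃ Fin (Nat.card α) := Finite.equivFin α
  have h1 := h3 _ h (e.permCongr σ) (by rw [Equiv.Perm.sign_permCongr, hsign])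
  have h2 : σ ^ 3 = 1 := by
    apply e.permCongrHom.injective
    rw [map_pow, map_one]
    exact h1
  exact orderOf_eq_one_iff.mp (Nat.eq_one_of_dvd_coprimes
    (Nat.Coprime.pow_left k (by norm_num : Nat.Coprime 2 3))
    (orderOf_dvd_of_pow_eq_one hk) (orderOf_dvd_of_pow_eq_one h2))

variable [Finite G] {T : Sylow 2 G} {S : Subgroup G}

/-- The case in which elements of odd order of the normalizer centralise `S`. -/
theorem le_sup_centralizer_of_two_group (hcl : IsStronglyClosed S (T : Subgroup G))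
    (hw : ∀ w ∈ Subgroup.normalizer (S : Set G), Odd (orderOf w) →
      w ∈ Subgroup.centralizer (S : Set G))
    (h : (T : Subgroup G) ≤ ⁅Subgroup.normalizer (S : Set G), Subgroup.normalizer (S : Set G)⁆ ⊔ S) :
    (T : Subgroup G) ≤ S ⊔ Subgroup.centralizer (S : Set G) := by
  classical
  haveI : Fact (Nat.Prime 2) := ⟨Nat.prime_two⟩
  set N := Subgroup.normalizer (S : Set G) with hN
  have hCN : Subgroup.centralizer (S : Set G) ≤ N := fun x hx =>
    mem_normalizer_of_conj_mem fun s hs => by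
      rw [← Subgroup.mem_centralizer_iff.1 hx s hs, mul_inv_cancel_right]
      exact hs
  have hWN : S ⊔ Subgroup.centralizer (S : Set G) ≤ N := sup_le Subgroup.le_normalizer hCN
  set W := (S ⊔ Subgroup.centralizer (S : Set G)).subgroupOf N with hW
  haveI : W.Normal := by
    refine (Subgroup.normal_subgroupOf_iff_le_normalizer hWN).2 fun n hn => ?_
    refine mem_normalizer_of_conj_mem fun x hx => ?_
    have hle : (S ⊔ Subgroup.centralizer (S : Set G)).map (MulAut.conj n).toMonoidHom ≤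
        S ⊔ Subgroup.centralizer (S : Set G) := by
      rw [Subgroup.map_sup]
      refine sup_le_sup ?_ ?_
      · rintro _ ⟨s, hs, rfl⟩; exact normalizer_conj hn hs
      · rintro _ ⟨s, hs, rfl⟩; exact conj_mem_centralizer hn hs
    exact hle ⟨x, hx, rfl⟩
  set π := QuotientGroup.mk' W with hπ
  have h2 : IsPGroup 2 (N ⧸ W) := by
    intro y
    obtain ⟨x, rfl⟩ := QuotientGroup.mk'_surjective W y
    obtain ⟨e, o, ho, he⟩ := Nat.exists_eq_two_pow_mul_odd (orderOf_pos x).ne'
    refine ⟨e, ?_⟩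
    rw [← map_pow]
    refine (QuotientGroup.eq_one_iff _).2 ?_
    rw [hW, Subgroup.mem_subgroupOf]
    refine Subgroup.mem_sup_right (hw _ (x ^ 2 ^ e).2 ?_)
    rw [Subgroup.orderOf_coe, orderOf_pow_of_dvd (by positivity) ⟨o, he⟩, he,
      Nat.mul_div_cancel_left _ (by positivity)]
    exact ho
  have hTN : (T : Subgroup G) ≤ N := sylow_le_normalizer hcl
  set R := (T.subtype hTN).mapSurjective (f := π) (QuotientGroup.mk'_surjective W) with hR
  have hRtop : (R : Subgroup (N ⧸ W)) = ⊤ := (R.3 (h2.to_subgroup ⊤) le_top).symm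
  have hperf : commutator (N ⧸ W) = ⊤ := by
    refine eq_top_iff.2 (hRtop ▸ ?_)
    rw [hR, Sylow.coe_mapSurjective, Sylow.coe_subtype]
    rintro _ ⟨x, hx, rfl⟩
    have hx' : (x : G) ∈ (⁅N, N⁆ ⊔ S : Subgroup G) := h hx
    have hle : ⁅N, N⁆ ⊔ S ≤ (((commutator (N ⧸ W)).comap π).map N.subtype) := by
      refine sup_le ?_ fun s hs => ⟨⟨s, Subgroup.le_normalizer hs⟩, ?_, rfl⟩
      · rw [Subgroup.commutator_le]
        intro a ha b hb
        refine ⟨⁅(⟨a, ha⟩ : N), ⟨b, hb⟩⁆, ?_, rfl⟩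
        rw [SetLike.mem_coe, Subgroup.mem_comap, map_commutatorElement]
        exact Subgroup.commutator_mem_commutator (Subgroup.mem_top _) (Subgroup.mem_top _)
      · rw [SetLike.mem_coe, Subgroup.mem_comap]
        have : π ⟨s, Subgroup.le_normalizer hs⟩ = 1 :=
          (QuotientGroup.eq_one_iff _).2 (Subgroup.mem_subgroupOf.2 (Subgroup.mem_sup_left hs))
        rw [this]
        exact one_mem _
    obtain ⟨x', hx'1, hx'2⟩ := hle hx'
    rw [← Subtype.ext (show (x' : G) = (x : G) from hx'2)]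
    exact hx'1
  haveI : Group.IsNilpotent (N ⧸ W) := h2.isNilpotent
  have hsub : Subsingleton (N ⧸ W) := by
    by_contra hns
    rw [not_subsingleton_iff_nontrivial] at hns
    exact (Group.IsSolvable.commutator_lt_top_of_nontrivial (N ⧸ W)).ne hperf
  intro t ht
  have : π ⟨t, hTN ht⟩ = 1 := Subsingleton.elim _ _
  exact Subgroup.mem_subgroupOf.1 ((QuotientGroup.eq_one_iff _).1 this)

/-- The quaternion group of order eight. -/
theorem le_sup_centralizer_of_eight (hcl : IsStronglyClosed S (T : Subgroup G)) {z a j : G}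
    (ha : a ∈ S) (hj : j ∈ S) (hza : a * a = z) (hzj : j * j = z) (hz1 : z ≠ 1)
    (hz : ∀ s ∈ S, s * s = 1 → s = 1 ∨ s = z)
    (hcov : ∀ x ∈ S, x = 1 ∨ x = z ∨ x = a ∨ x = a⁻¹ ∨ x = j ∨ x = j⁻¹ ∨ x = a * j ∨
      x = (a * j)⁻¹)
    (hja : j * a * j⁻¹ = a⁻¹) (hzc : ∀ x : G, Commute x z)
    (h : (T : Subgroup G) ≤ ⁅Subgroup.normalizer (S : Set G), Subgroup.normalizer (S : Set G)⁆ ⊔ S) :
    (T : Subgroup G) ≤ S ⊔ Subgroup.centralizer (S : Set G) := by
  classical
  haveI : Fact (Nat.Prime 2) := ⟨Nat.prime_two⟩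
  set N := Subgroup.normalizer (S : Set G) with hN
  have hzz : z * z = 1 := by
    have h1 : a⁻¹ * a⁻¹ = z := by
      rw [← hja, show j * a * j⁻¹ * (j * a * j⁻¹) = j * (a * a) * j⁻¹ by group, hza, (hzc j).eq]
      group
    rw [← mul_inv_rev, hza] at h1
    exact inv_eq_iff_mul_eq_one.1 h1
  have hzinv : z⁻¹ = z := inv_eq_of_mul_eq_one_right hzz
  have haj : a * j * a⁻¹ = j⁻¹ := by
    have h1 : a * j * a⁻¹ = a * (j * a⁻¹ * j⁻¹) * j := by group
    have h2 : j * a⁻¹ * j⁻¹ = a := by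
      rw [show j * a⁻¹ * j⁻¹ = (j * a * j⁻¹)⁻¹ by group, hja, inv_inv]
    rw [h1, h2, hza, ← hzj]
    calc j * j * j = j * (j * j) := by group
      _ = j * z⁻¹ := by rw [hzj, hzinv]
      _ = j⁻¹ := by rw [← hzj]; group
  have hajz : a * j * (a * j) = z := by
    calc a * j * (a * j) = a * (j * a * j⁻¹) * (j * j) := by group
      _ = z := by rw [hja, hzj, mul_inv_cancel, one_mul]
  -- the three cyclic subgroups of order four
  let Ω := {A : Subgroup G // ∃ x ∈ S, x * x = z ∧ A = Subgroup.zpowers x}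
  have hclass : ∀ A : Ω, (A : Subgroup G) = Subgroup.zpowers a ∨
      (A : Subgroup G) = Subgroup.zpowers j ∨ (A : Subgroup G) = Subgroup.zpowers (a * j) := by
    rintro ⟨A, x, hx, hxz, rfl⟩
    rcases hcov x hx with rfl | rfl | rfl | rfl | rfl | rfl | rfl | rfl
    · exact absurd (by rw [← hxz, mul_one]) hz1
    · exact absurd (hxz.symm.trans hzz) hz1
    · exact Or.inl rfl
    · exact Or.inl Subgroup.zpowers_inv
    · exact Or.inr (Or.inl rfl)
    · exact Or.inr (Or.inl Subgroup.zpowers_inv)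
    · exact Or.inr (Or.inr rfl)
    · exact Or.inr (Or.inr Subgroup.zpowers_inv)
  let v : Fin 3 → Ω := ![⟨_, a, ha, hza, rfl⟩, ⟨_, j, hj, hzj, rfl⟩,
    ⟨_, a * j, mul_mem ha hj, hajz, rfl⟩]
  have hv : Function.Surjective v := by
    intro A
    rcases hclass A with hA | hA | hA
    · exact ⟨0, Subtype.ext hA.symm⟩
    · exact ⟨1, Subtype.ext hA.symm⟩
    · exact ⟨2, Subtype.ext hA.symm⟩
  haveI : Finite Ω := Finite.of_surjective v hv
  letI : Fintype Ω := Fintype.ofFinite Ω
  have hcard : Nat.card Ω ≤ 3 :=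
    (Nat.card_le_card_of_surjective v hv).trans (le_of_eq (Nat.card_fin 3))
  letI act : MulAction N Ω :=
    { smul := fun n A => ⟨(A : Subgroup G).map (MulAut.conj (n : G)).toMonoidHom, by
        obtain ⟨x, hx, hxz, hA⟩ := A.2
        refine ⟨(n : G) * x * (n : G)⁻¹, normalizer_conj n.2 hx, ?_, ?_⟩
        · rw [show (n : G) * x * (n : G)⁻¹ * ((n : G) * x * (n : G)⁻¹) =
            (n : G) * (x * x) * (n : G)⁻¹ by group, hxz, (hzc _).eq, mul_inv_cancel_right]
        · rw [hA, MonoidHom.map_zpowers]; rfl⟩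
      one_smul := fun A => Subtype.ext (by
        show (A : Subgroup G).map (MulAut.conj ((1 : N) : G)).toMonoidHom = _
        ext x
        simp [Subgroup.mem_map])
      mul_smul := fun n n' A => Subtype.ext (by
        show (A : Subgroup G).map (MulAut.conj ((n * n' : N) : G)).toMonoidHom =
          ((A : Subgroup G).map (MulAut.conj (n' : G)).toMonoidHom).map
            (MulAut.conj (n : G)).toMonoidHom
        rw [Subgroup.map_map]
        congr 1
        ext x
        simp [mul_assoc]) }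
  let f : N →* Equiv.Perm Ω := MulAction.toPermHom N Ω
  let χ : N →* ℤˣ := Equiv.Perm.sign.comp f
  have hfS : ∀ s (hs : s ∈ S), f ⟨s, Subgroup.le_normalizer hs⟩ = 1 := by
    intro s hs
    refine Equiv.ext fun A => Subtype.ext ?_
    show (A : Subgroup G).map (MulAut.conj s).toMonoidHom = (A : Subgroup G)
    have hpre : ∀ b, s * b * s⁻¹ = b ∨ s * b * s⁻¹ = b⁻¹ →
        (Subgroup.zpowers b).map (MulAut.conj s).toMonoidHom = Subgroup.zpowers b := by
      intro b hb
      rw [MonoidHom.map_zpowers]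
      show Subgroup.zpowers (s * b * s⁻¹) = _
      rcases hb with e | e <;> rw [e]
      exact Subgroup.zpowers_inv
    have hmem : ∀ b ∈ ({a, j, a * j} : Set G), ∀ c ∈ ({a, j, a * j} : Set G),
        c * b * c⁻¹ = b ∨ c * b * c⁻¹ = b⁻¹ := by
      have e1 : a * (a * j) * a⁻¹ = (a * j)⁻¹ := by
        rw [show a * (a * j) * a⁻¹ = a * (a * j * a⁻¹) by group, haj, mul_inv_rev]
        calc a * j⁻¹ = a * j⁻¹ * (j * a * j⁻¹ * a) := by rw [hja, inv_mul_cancel, mul_one]
          _ = a * a * j⁻¹ * a := by group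
          _ = j⁻¹ * z * a := by rw [hza, (hzc j⁻¹).eq]
          _ = j⁻¹ * a⁻¹ := by rw [← hzinv, ← hza]; group
      have e2 : j * (a * j) * j⁻¹ = (a * j)⁻¹ := by
        rw [show j * (a * j) * j⁻¹ = (j * a * j⁻¹) * (j * j) * j⁻¹ by group, hja, mul_inv_rev, hzj,
          show a⁻¹ * z * j⁻¹ = z * (a⁻¹ * j⁻¹) by rw [(hzc a⁻¹).eq, mul_assoc],
          show j⁻¹ * a⁻¹ = j⁻¹ * a⁻¹ * j * j⁻¹ by group,
          show j⁻¹ * a⁻¹ * j = (j⁻¹ * a * j⁻¹⁻¹)⁻¹ by group]
        have h2 : j⁻¹ * a * j⁻¹⁻¹ = a⁻¹ := by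
          rw [inv_inv]
          calc j⁻¹ * a * j = (j * j)⁻¹ * (j * a * j⁻¹) * (j * j) := by group
            _ = a⁻¹ := by rw [hja, hzj, mul_assoc, (hzc a⁻¹).eq, inv_mul_cancel_left]
        rw [h2, inv_inv, ← hza]
        group
      have e3 : a * j * a * (a * j)⁻¹ = a⁻¹ := by
        rw [show a * j * a * (a * j)⁻¹ = a * (j * a * j⁻¹) * a⁻¹ by group, hja]; group
      have e4 : a * j * j * (a * j)⁻¹ = j⁻¹ := by
        rw [show a * j * j * (a * j)⁻¹ = a * j * a⁻¹ by group, haj]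
      rintro b (rfl | rfl | rfl) c (rfl | rfl | rfl)
      · left; group
      · exact Or.inr hja
      · exact Or.inr e3
      · exact Or.inr haj
      · left; group
      · exact Or.inr e4
      · exact Or.inr e1
      · exact Or.inr e2
      · left; group
    have hgen : ∀ b ∈ ({a, j, a * j} : Set G), ∀ s ∈ S, s * b * s⁻¹ = b ∨ s * b * s⁻¹ = b⁻¹ := by
      intro b hb s hs
      have hinv : ∀ c, (c * b * c⁻¹ = b ∨ c * b * c⁻¹ = b⁻¹) →
          (c⁻¹ * b * c⁻¹⁻¹ = b ∨ c⁻¹ * b * c⁻¹⁻¹ = b⁻¹) := by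
        rintro c (e | e)
        · left; nth_rw 1 [← e]; group
        · right
          have e' : c * b⁻¹ * c⁻¹ = b := by
            rw [show c * b⁻¹ * c⁻¹ = (c * b * c⁻¹)⁻¹ by group, e, inv_inv]
          nth_rw 1 [← e']
          group
      rcases hcov s hs with rfl | rfl | rfl | rfl | rfl | rfl | rfl | rfl
      · left; group
      · left; rw [← (hzc b).eq, mul_inv_cancel_right]
      · exact hmem b hb _ (Or.inl rfl)
      · exact hinv _ (hmem b hb _ (Or.inl rfl))
      · exact hmem b hb _ (Or.inr (Or.inl rfl))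
      · exact hinv _ (hmem b hb _ (Or.inr (Or.inl rfl)))
      · exact hmem b hb _ (Or.inr (Or.inr rfl))
      · exact hinv _ (hmem b hb _ (Or.inr (Or.inr rfl)))
    rcases hclass A with hA | hA | hA <;> rw [hA] <;> refine hpre _ (hgen _ ?_ s hs)
    · exact Or.inl rfl
    · exact Or.inr (Or.inl rfl)
    · exact Or.inr (Or.inr rfl)
  have hker : ⁅N, N⁆ ⊔ S ≤ χ.ker.map N.subtype := by
    refine sup_le ?_ fun s hs => ⟨⟨s, Subgroup.le_normalizer hs⟩, ?_, rfl⟩
    · rw [Subgroup.commutator_le]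
      intro x hx y hy
      refine ⟨⁅(⟨x, hx⟩ : N), ⟨y, hy⟩⁆, ?_, rfl⟩
      rw [SetLike.mem_coe, MonoidHom.mem_ker, map_commutatorElement]
      exact commutatorElement_eq_one_iff_mul_comm.2 (mul_comm _ _)
    · show χ _ = 1
      simp [χ, hfS s hs]
  intro t ht
  have htN : t ∈ N := sylow_le_normalizer hcl ht
  obtain ⟨t', ht', htt⟩ := hker (h ht)
  have htt' : t' = ⟨t, htN⟩ := Subtype.ext htt
  subst htt'
  obtain ⟨k, hk⟩ := exists_pow_two_pow T.2 ht
  have hft : f ⟨t, htN⟩ = 1 := perm_eq_one_of_sign hcard ht' (k := k) (by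
    rw [← map_pow, show (⟨t, htN⟩ : N) ^ 2 ^ k = 1 from Subtype.ext hk, map_one])
  have hfix : ∀ b, b ∈ S → b * b = z → t * b * t⁻¹ = b ∨ t * b * t⁻¹ = b⁻¹ := by
    intro b hb hbz
    have h1 : (Subgroup.zpowers b).map (MulAut.conj t).toMonoidHom = Subgroup.zpowers b :=
      congrArg (fun σ : Equiv.Perm Ω => ((σ ⟨_, b, hb, hbz, rfl⟩ : Ω) : Subgroup G)) hft
    have h2 : t * b * t⁻¹ ∈ Subgroup.zpowers b :=
      h1 ▸ ⟨b, Subgroup.mem_zpowers b, rfl⟩
    obtain ⟨m, hm⟩ := Subgroup.mem_zpowers_iff.1 h2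
    obtain ⟨l, hl | hl⟩ := Int.even_or_odd' m
    · have e : (t * b * t⁻¹) * (t * b * t⁻¹) = z := by
        rw [show t * b * t⁻¹ * (t * b * t⁻¹) = t * (b * b) * t⁻¹ by group, hbz, (hzc t).eq,
          mul_inv_cancel_right]
      rw [← hm, hl, zpow_mul, zpow_ofNat, pow_two, hbz, ← (Commute.refl z).mul_zpow, hzz,
        one_zpow] at e
      exact absurd e.symm hz1
    · obtain ⟨l', hl' | hl'⟩ := Int.even_or_odd' l
      · left
        rw [← hm, hl, zpow_add, zpow_one, zpow_mul, zpow_ofNat, pow_two, hbz, hl', zpow_mul,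
          zpow_ofNat, pow_two, hzz, one_zpow, one_mul]
      · right
        rw [← hm, hl, zpow_add, zpow_one, zpow_mul, zpow_ofNat, pow_two, hbz, hl', zpow_add,
          zpow_one, zpow_mul, zpow_ofNat, pow_two, hzz, one_zpow, one_mul, ← hzinv, ← hbz]
        group
  have hcov' : ∀ x ∈ S, ∃ b ∈ Subgroup.zpowers a, x = b ∨ x = b * j := by
    have ha' := Subgroup.mem_zpowers a
    have hz' : z ∈ Subgroup.zpowers a := hza ▸ mul_mem ha' ha'
    intro x hx
    rcases hcov x hx with rfl | rfl | rfl | rfl | rfl | rfl | rfl | rfl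
    · exact ⟨1, one_mem _, Or.inl rfl⟩
    · exact ⟨_, hz', Or.inl rfl⟩
    · exact ⟨_, ha', Or.inl rfl⟩
    · exact ⟨_, inv_mem ha', Or.inl rfl⟩
    · exact ⟨1, one_mem _, Or.inr (one_mul _).symm⟩
    · exact ⟨z, hz', Or.inr (by rw [← hzinv, ← hzj]; group)⟩
    · exact ⟨_, ha', Or.inr rfl⟩
    · refine ⟨a * z, mul_mem ha' hz', Or.inr (inv_eq_of_mul_eq_one_right ?_)⟩
      rw [(hzc a).eq, show a * j * (z * a * j) = a * j * z * (a * j) by group, (hzc (a * j)).eq,
        mul_assoc, hajz, hzz]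
  -- an inner automorphism agreeing with `t` on `a` and on `j`
  obtain ⟨s, hs, hsa, hsj⟩ : ∃ s ∈ S, s * a * s⁻¹ = t * a * t⁻¹ ∧ s * j * s⁻¹ = t * j * t⁻¹ := by
    rcases hfix a ha hza with e | e <;> rcases hfix j hj hzj with e' | e' <;> rw [e, e']
    · exact ⟨1, one_mem _, by group, by group⟩
    · exact ⟨a, ha, by group, haj⟩
    · exact ⟨j, hj, hja, by group⟩
    · refine ⟨a * j, mul_mem ha hj, ?_, ?_⟩
      · rw [show a * j * a * (a * j)⁻¹ = a * (j * a * j⁻¹) * a⁻¹ by group, hja]; group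
      · rw [show a * j * j * (a * j)⁻¹ = a * j * a⁻¹ by group, haj]
  have hw : s⁻¹ * t ∈ Subgroup.centralizer (S : Set G) := by
    refine mem_centralizer_of_two hcov' ?_ ?_
    · rw [← mul_inv_eq_iff_eq_mul,
        show s⁻¹ * t * a * (s⁻¹ * t)⁻¹ = s⁻¹ * (t * a * t⁻¹) * s by group, ← hsa]
      group
    · rw [← mul_inv_eq_iff_eq_mul,
        show s⁻¹ * t * j * (s⁻¹ * t)⁻¹ = s⁻¹ * (t * j * t⁻¹) * s by group, ← hsj]
      group
  exact mul_inv_cancel_left s t ▸ Subgroup.mul_mem_sup hs hw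

/-- A Sylow 2-subgroup of the normalizer inside the commutator subgroup times `S` induces inner
automorphisms of `S`. -/
theorem le_sup_centralizer (hcl : IsStronglyClosed S (T : Subgroup G)) {z : G} (hzo : orderOf z = 2)
    (hzS : z ∈ S) (hz : ∀ s ∈ S, s * s = 1 → s = 1 ∨ s = z) (hzc : ∀ x : G, Commute x z)
    (hna : ¬ ∀ x ∈ S, ∀ y ∈ S, x * y = y * x)
    (h : (T : Subgroup G) ≤ ⁅Subgroup.normalizer (S : Set G), Subgroup.normalizer (S : Set G)⁆ ⊔ S) :
    (T : Subgroup G) ≤ S ⊔ Subgroup.centralizer (S : Set G) := by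
  haveI : Fact (Nat.Prime 2) := ⟨Nat.prime_two⟩
  have hz1 : z ≠ 1 := CfsgLib.StronglyEmbedded.ne_one_of_orderOf_two hzo
  have hS2 : IsPGroup 2 S := T.2.to_le hcl.1
  have hat : AtMostOneInvolution S := by
    intro x y hx hy
    have hv : ∀ w : S, orderOf w = 2 → (w : G) = z := fun w hw => by
      rw [← Subgroup.orderOf_coe, CfsgLib.StronglyEmbedded.orderOf_two_iff] at hw
      exact (hz _ w.2 hw.1).resolve_left hw.2
    exact Subtype.ext ((hv x hx).trans (hv y hy).symm)
  rcases cyclic_or_quaternion_frame hS2 hat with hc | ⟨n, hn, -, ⟨F⟩⟩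
  · refine absurd (fun x hx y hy => ?_) hna
    letI := IsCyclic.commGroup (α := S)
    exact congrArg Subtype.val (mul_comm (⟨x, hx⟩ : S) ⟨y, hy⟩)
  set a : G := ((F.e 1 : S) : G) with ha
  set y : G := ((F.y : S) : G) with hy
  have hA : ∀ i, ((F.e i : S) : G) ∈ Subgroup.zpowers a := fun i => by
    obtain ⟨k, rfl⟩ := ZMod.intCast_surjective i
    refine ⟨k, ?_⟩
    show a ^ k = _
    rw [ha, ← Subgroup.coe_zpow, ← F.map_zsmul, mul_one]
  have hcov : ∀ x ∈ S, ∃ b ∈ Subgroup.zpowers a, x = b ∨ x = b * y := by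
    intro x hx
    obtain ⟨i, hi | hi⟩ := F.cover ⟨x, hx⟩
    · exact ⟨_, hA i, Or.inl (congrArg Subtype.val hi)⟩
    · exact ⟨_, hA i, Or.inr (congrArg Subtype.val hi)⟩
  have hyA : y ∉ Subgroup.zpowers a := by
    intro h1
    obtain ⟨k, hk⟩ := Subgroup.mem_zpowers_iff.1 h1
    refine F.y_ne (k : ZMod (2 ^ n)) (Subtype.ext ?_)
    rw [← mul_one (k : ZMod (2 ^ n)), F.map_zsmul, Subgroup.coe_zpow]
    exact hk
  have hhalf : F.e (half n) * F.e (half n) = 1 := by
    rw [F.e_mul_e, ← two_mul, two_mul_half (by omega), F.map_zero]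
  have hsq : ∀ i, (F.e i * F.y) * (F.e i * F.y) = F.e (half n) := fun i => by
    rw [F.ey_mul_ey]; congr 1; ring
  rcases Nat.lt_or_ge n 3 with hn3 | hn3
  · -- order eight
    obtain rfl : n = 2 := by omega
    have he2 : ((F.e 2 : S) : G) = z := by
      refine (hz _ (F.e 2).2 ?_).resolve_left fun h1 => ?_
      · rw [← Subgroup.coe_mul, F.e_mul_e, show (2 + 2 : ZMod (2 ^ 2)) = 0 by decide, F.map_zero]
        rfl
      · have : (2 : ZMod (2 ^ 2)) = 0 := F.e_eq_one.1 (Subtype.ext h1)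
        exact absurd this (by decide)
    have hhalf2 : half 2 = (2 : ZMod (2 ^ 2)) := by decide
    have he2' : F.e (half 2) = F.e 2 := congrArg F.e hhalf2
    have hall : ∀ k : ZMod (2 ^ 2), k = 0 ∨ k = 1 ∨ k = 2 ∨ k = 3 := by decide
    refine le_sup_centralizer_of_eight hcl (z := z) (a := a) (j := y) (F.e 1).2 F.y.2 ?_ ?_ hz1 hz
      ?_ ?_ hzc h
    · rw [ha, ← Subgroup.coe_mul, F.e_mul_e, show (1 + 1 : ZMod (2 ^ 2)) = 2 by decide, he2]
    · rw [hy, ← Subgroup.coe_mul, F.y_sq, he2', he2]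
    · have he3 : ((F.e 3 : S) : G) = a⁻¹ := by
        rw [ha, ← Subgroup.coe_inv, ← F.map_neg]
        exact congrArg (fun k => ((F.e k : S) : G)) (show (3 : ZMod (2 ^ 2)) = -1 by decide)
      have hinvj : ∀ i, ((F.e i * F.y : S) : G)⁻¹ = ((F.e (i + 2) * F.y : S) : G) := by
        intro i
        rw [← Subgroup.coe_inv]
        refine congrArg Subtype.val (inv_eq_of_mul_eq_one_right ?_)
        rw [F.ey_mul_ey]
        refine (congrArg F.e ?_).trans F.map_zero
        rw [hhalf2]; ring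
      intro x hx
      obtain ⟨i, hi | hi⟩ := F.cover ⟨x, hx⟩ <;>
        have hi' : x = _ := congrArg Subtype.val hi <;> subst hi' <;>
        rcases hall i with rfl | rfl | rfl | rfl
      · exact Or.inl (by rw [F.map_zero]; rfl)
      · exact Or.inr (Or.inr (Or.inl rfl))
      · exact Or.inr (Or.inl he2)
      · exact Or.inr (Or.inr (Or.inr (Or.inl he3)))
      · refine Or.inr (Or.inr (Or.inr (Or.inr (Or.inl ?_))))
        rw [F.map_zero, one_mul]
      · exact Or.inr (Or.inr (Or.inr (Or.inr (Or.inr (Or.inr (Or.inl rfl))))))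
      · refine Or.inr (Or.inr (Or.inr (Or.inr (Or.inr (Or.inl ?_)))))
        have h0 := hinvj 0
        rw [F.map_zero, one_mul, zero_add] at h0
        exact h0.symm
      · refine Or.inr (Or.inr (Or.inr (Or.inr (Or.inr (Or.inr (Or.inr ?_))))))
        have h1 := hinvj 1
        rw [show (1 + 2 : ZMod (2 ^ 2)) = 3 by decide] at h1
        exact h1.symm
    · have h0 := F.conj_e 0 1
      rw [F.map_zero, one_mul, mul_one, F.map_neg] at h0
      exact congrArg Subtype.val h0
  · -- order at least sixteen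
    refine le_sup_centralizer_of_two_group hcl (fun w hw ho => ?_) h
    have hao : orderOf a = 2 ^ n := by rw [ha, Subgroup.orderOf_coe, F.orderOf_e_one]
    have haA : w * a * w⁻¹ ∈ Subgroup.zpowers a := by
      obtain ⟨i, hi | hi⟩ := F.cover ⟨w * a * w⁻¹, normalizer_conj hw (F.e 1).2⟩
      · rw [show w * a * w⁻¹ = _ from congrArg Subtype.val hi]
        exact hA i
      · exfalso
        have h4 : (w * a * w⁻¹) ^ 4 = 1 := by
          rw [show w * a * w⁻¹ = _ from congrArg Subtype.val hi, ← Subgroup.coe_pow,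
            show (F.e i * F.y) ^ 4 = (F.e i * F.y * (F.e i * F.y)) * (F.e i * F.y * (F.e i * F.y))
              by rw [pow_succ, pow_succ, pow_two, mul_assoc], hsq, hhalf]
          rfl
        have h5 := orderOf_dvd_of_pow_eq_one h4
        rw [CfsgLib.StronglyEmbedded.orderOf_conj, hao] at h5
        have := Nat.le_of_dvd (by norm_num) h5
        have : 2 ^ 3 ≤ 2 ^ n := Nat.pow_le_pow_right two_pos hn3
        omega
    have hAS : Subgroup.zpowers a ≤ S := Subgroup.zpowers_le.2 (F.e 1).2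
    have hfix : ∀ b ∈ Subgroup.zpowers a, w * b * w⁻¹ = b := by
      refine fun b hb => fix_of_odd (hS2.to_le hAS) ?_ ho ?_ ?_ hb
      · intro p hp q hq
        obtain ⟨k, rfl⟩ := Subgroup.mem_zpowers_iff.1 hp
        obtain ⟨l, rfl⟩ := Subgroup.mem_zpowers_iff.1 hq
        exact (Commute.zpow_zpow_self a k l).eq
      · intro p hp
        obtain ⟨k, rfl⟩ := Subgroup.mem_zpowers_iff.1 hp
        rw [← conj_zpow]
        exact zpow_mem haA k
      · intro p hp hp2
        rcases hz p (hAS hp) hp2 with rfl | rfl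
        · simp
        · rw [(hzc w).eq, mul_inv_cancel_right]
    obtain ⟨b, hb, hyb | hyb⟩ := hcov _ (normalizer_conj hw F.y.2)
    · exact absurd (by
        have : w⁻¹ * b * w = b := by nth_rw 1 [← hfix b hb]; group
        rw [← hyb] at this
        rw [show y = w⁻¹ * (w * y * w⁻¹) * w by group, this, hyb]
        exact hb) hyA
    · have hb1 : b = 1 :=
        eq_one_of_coset hS2 ho (hAS hb) (hfix b hb) hyb
      rw [hb1, one_mul] at hyb
      exact mem_centralizer_of_two hcov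
        (mul_inv_eq_iff_eq_mul.1 (hfix a (Subgroup.mem_zpowers a)))
        (mul_inv_eq_iff_eq_mul.1 hyb)

end CfsgLib.StrongClosure34
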