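import Cfsg.Agent.StrongClosure34.Tools

/-!
Fusion in the presence of a strongly closed 2-subgroup `S` with a unique, central involution: on the
Sylow 2-subgroup it is induced modulo `S` by the normalizer of `S`, and the centralizer of `S` in
the Sylow 2-subgroup is strongly closed.
-/

set_option autoImplicit false

namespace CfsgLib.StrongClosure34

open Cfsg

variable {G : Type*} [Group G]

/-- The centralizer of `S` in `T`. -/
abbrev cen (T : Sylow 2 G) (S : Subgroup G) : Subgroup G :=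
  (T : Subgroup G) ⊓ Subgroup.centralizer (S : Set G)

/-- Conjugation by `g` on `R` is induced modulo `S` by the normalizer of `S`, and respects the
centralizer of `S`. -/
def Rel (T : Sylow 2 G) (S R : Subgroup G) (g : G) : Prop :=
  ∃ n ∈ Subgroup.normalizer (S : Set G), ∀ r ∈ R,
    (n * r * n⁻¹)⁻¹ * (g * r * g⁻¹) ∈ S ∧ (r ∈ cen T S ↔ g * r * g⁻¹ ∈ cen T S)

variable {T : Sylow 2 G} {S : Subgroup G}

theorem conj_mem_of_closed (hcl : IsStronglyClosed S (T : Subgroup G)) {t s : G}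
    (ht : t ∈ (T : Subgroup G)) (hs : s ∈ S) : t * s * t⁻¹ ∈ S :=
  hcl.2 s hs t (mul_mem (mul_mem ht (hcl.1 hs)) (inv_mem ht))

theorem sylow_le_normalizer (hcl : IsStronglyClosed S (T : Subgroup G)) :
    (T : Subgroup G) ≤ Subgroup.normalizer (S : Set G) := fun t ht =>
  Subgroup.mem_normalizer_iff.2 fun s => ⟨fun hs => conj_mem_of_closed hcl ht hs, fun hs => by
    simpa [mul_assoc] using conj_mem_of_closed hcl (inv_mem ht) hs⟩

theorem normalizer_conj {n x : G} (hn : n ∈ Subgroup.normalizer (S : Set G)) (hx : x ∈ S) :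
    n * x * n⁻¹ ∈ S :=
  (Subgroup.mem_normalizer_iff.1 hn x).1 hx

theorem normalizer_conj_inv {n x : G} (hn : n ∈ Subgroup.normalizer (S : Set G)) (hx : x ∈ S) :
    n⁻¹ * x * n ∈ S := by
  simpa using normalizer_conj (inv_mem hn) hx

theorem mem_cen_iff {x : G} :
    x ∈ cen T S ↔ x ∈ (T : Subgroup G) ∧ ∀ s ∈ S, s * x = x * s := by
  rw [cen, Subgroup.mem_inf, Subgroup.mem_centralizer_iff]; rfl

theorem conj_mem_centralizer {n x : G} (hn : n ∈ Subgroup.normalizer (S : Set G))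
    (hx : x ∈ Subgroup.centralizer (S : Set G)) :
    n * x * n⁻¹ ∈ Subgroup.centralizer (S : Set G) := by
  refine Subgroup.mem_centralizer_iff.2 fun s hs => ?_
  have h := Subgroup.mem_centralizer_iff.1 hx _ (normalizer_conj_inv hn hs)
  calc s * (n * x * n⁻¹) = n * (n⁻¹ * s * n * x) * n⁻¹ := by group
    _ = n * (x * (n⁻¹ * s * n)) * n⁻¹ := by rw [h]
    _ = n * x * n⁻¹ * s := by group

theorem Rel.mono {R R' : Subgroup G} {g : G} (h : Rel T S R' g) (hle : R ≤ R') : Rel T S R g := by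
  obtain ⟨n, hn, h⟩ := h
  exact ⟨n, hn, fun r hr => h r (hle hr)⟩

theorem Rel.trans {R R' : Subgroup G} {g g' : G} (h : Rel T S R g) (h' : Rel T S R' g')
    (hR : ∀ r ∈ R, g * r * g⁻¹ ∈ R') : Rel T S R (g' * g) := by
  obtain ⟨n, hn, h⟩ := h
  obtain ⟨n', hn', h'⟩ := h'
  refine ⟨n' * n, mul_mem hn' hn, fun r hr => ?_⟩
  obtain ⟨h1, h2⟩ := h r hr
  obtain ⟨h3, h4⟩ := h' _ (hR r hr)
  rw [← conj_mul_conj g' g r]
  refine ⟨?_, h2.trans h4⟩
  have := S.mul_mem (normalizer_conj hn' h1) h3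
  convert this using 1
  group

theorem Rel.symm {R R' : Subgroup G} {g : G} (h : Rel T S R g)
    (hR : ∀ r ∈ R', g⁻¹ * r * g ∈ R) : Rel T S R' g⁻¹ := by
  obtain ⟨n, hn, h⟩ := h
  refine ⟨n⁻¹, inv_mem hn, fun r hr => ?_⟩
  obtain ⟨h1, h2⟩ := h _ (hR r hr)
  simp only [inv_inv]
  rw [show g * (g⁻¹ * r * g) * g⁻¹ = r by group] at h1 h2
  refine ⟨?_, h2.symm⟩
  -- `r = n r' n⁻¹ s` gives `n⁻¹ r n = r' · (n⁻¹ s n)`
  have := S.inv_mem (normalizer_conj_inv hn h1)
  convert this using 1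
  group

variable [Finite G]

theorem card_lt_of_lt' {A B : Subgroup G} (h : A < B) : Nat.card A < Nat.card B :=
  lt_of_le_of_ne (Subgroup.card_le_of_le h.le)
    fun e => h.ne (Subgroup.eq_of_le_of_card_ge h.le e.ge)

theorem mem_normalizer_of_conj_mem {g : G} (h : ∀ s ∈ S, g * s * g⁻¹ ∈ S) :
    g ∈ Subgroup.normalizer (S : Set G) := by
  refine Subgroup.mem_normalizer_iff_map_conj_eq.2 (Subgroup.eq_of_le_of_card_ge ?_ ?_)
  · rintro _ ⟨s, hs, rfl⟩
    exact h s hs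
  · rw [Subgroup.card_map_of_injective (MulAut.conj g).injective]

theorem conj_mem_normalizer {R : Subgroup G} {g x : G} (hg : g ∈ Subgroup.normalizer (R : Set G))
    (hx : x ∈ R) : g * x * g⁻¹ ∈ R :=
  (Subgroup.mem_normalizer_iff.1 hg x).1 hx

/-- The case of a subgroup containing `S`. -/
theorem rel_of_le (hcl : IsStronglyClosed S (T : Subgroup G)) {R : Subgroup G}
    (hR : R ≤ (T : Subgroup G)) (hSR : S ≤ R) {g : G} (hg : ∀ r ∈ R, g * r * g⁻¹ ∈ (T : Subgroup G)) :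
    Rel T S R g := by
  have hgS : g ∈ Subgroup.normalizer (S : Set G) :=
    mem_normalizer_of_conj_mem fun s hs => hcl.2 s hs g (hg s (hSR hs))
  refine ⟨g, hgS, fun r hr => ⟨by rw [inv_mul_cancel]; exact S.one_mem, fun h => ?_, fun h => ?_⟩⟩
  · exact ⟨hg r hr, conj_mem_centralizer hgS h.2⟩
  · refine ⟨hR hr, ?_⟩
    have := conj_mem_centralizer (inv_mem hgS) h.2
    simpa [mul_assoc] using this

/-- The normalizer step. -/
theorem rel_normalizer (hcl : IsStronglyClosed S (T : Subgroup G)) {z : G}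
    (hz : ∀ s ∈ S, s * s = 1 → s = 1 ∨ s = z) (hzc : ∀ x : G, Commute x z)
    {R : Subgroup G} (hR : R ≤ (T : Subgroup G)) (hSR : ¬ S ≤ R)
    (hfull : ∀ P : Subgroup G, IsPGroup 2 P → P ≤ Subgroup.normalizer (R : Set G) →
      ∃ m ∈ Subgroup.normalizer (R : Set G), ∀ x ∈ P, m * x * m⁻¹ ∈ (T : Subgroup G))
    (ih : ∀ R' : Subgroup G, R' ≤ (T : Subgroup G) → R < R' →
      ∀ g : G, (∀ r ∈ R', g * r * g⁻¹ ∈ (T : Subgroup G)) → Rel T S R' g)
    {m : G} (hm : m ∈ Subgroup.normalizer (R : Set G)) : Rel T S R m := by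
  classical
  haveI : Fact (Nat.Prime 2) := ⟨Nat.prime_two⟩
  set N := Subgroup.normalizer (R : Set G) with hN
  set U := R ⊓ S with hU
  have hUinv : ∀ n ∈ N, ∀ u ∈ U, n * u * n⁻¹ ∈ U := fun n hn u hu =>
    ⟨conj_mem_normalizer hn hu.1, hcl.2 u hu.2 n (hR (conj_mem_normalizer hn hu.1))⟩
  let A₂ : Subgroup G :=
    { carrier := {h | h ∈ N ∧ ∀ r ∈ R, h * r * h⁻¹ * r⁻¹ ∈ U}
      one_mem' := ⟨N.one_mem, fun r _ => by simpa using U.one_mem⟩
      mul_mem' := by
        rintro a b ⟨ha, ha'⟩ ⟨hb, hb'⟩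
        refine ⟨N.mul_mem ha hb, fun r hr => ?_⟩
        have := U.mul_mem (hUinv a ha _ (hb' r hr)) (ha' r hr)
        convert this using 1
        group
      inv_mem' := by
        rintro a ⟨ha, ha'⟩
        refine ⟨N.inv_mem ha, fun r hr => ?_⟩
        have h1 : a⁻¹ * r * a⁻¹⁻¹ ∈ R := conj_mem_normalizer (N.inv_mem ha) hr
        have := U.inv_mem (ha' _ h1)
        convert this using 1
        group }
  have hmemA : ∀ h, h ∈ A₂ ↔ h ∈ N ∧ ∀ r ∈ R, h * r * h⁻¹ * r⁻¹ ∈ U := fun h => Iff.rfl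
  have hA₂N : A₂ ≤ N := fun h hh => hh.1
  have hA₂norm : ∀ n ∈ N, ∀ h ∈ A₂, n * h * n⁻¹ ∈ A₂ := by
    intro n hn h hh
    refine ⟨N.mul_mem (N.mul_mem hn hh.1) (N.inv_mem hn), fun r hr => ?_⟩
    have h1 : n⁻¹ * r * n⁻¹⁻¹ ∈ R := conj_mem_normalizer (N.inv_mem hn) hr
    have := hUinv n hn _ (hh.2 _ h1)
    convert this using 1
    group
  set P₁ := (T : Subgroup G) ⊓ A₂ with hP₁
  -- an element of `S` outside `R` normalising it
  obtain ⟨v, hvS, hvR, hvA⟩ : ∃ v ∈ S, v ∉ R ∧ v ∈ A₂ := by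
    set J := R ⊔ S with hJ
    have hJT : J ≤ (T : Subgroup G) := sup_le hR hcl.1
    haveI : Group.IsNilpotent J := (T.2.to_le hJT).isNilpotent
    have hlt : R.subgroupOf J < ⊤ := lt_top_iff_ne_top.2 fun h =>
      hSR (le_trans le_sup_right (Subgroup.subgroupOf_eq_top.1 h))
    obtain ⟨w, hw, hwR⟩ := SetLike.exists_of_lt
      (Group.normalizerCondition_of_isNilpotent (R.subgroupOf J) hlt)
    have hRS : R ≤ Subgroup.normalizer (S : Set G) := hR.trans (sylow_le_normalizer hcl)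
    have hwJ : (w : G) ∈ ((R ⊔ S : Subgroup G) : Set G) := w.2
    rw [Subgroup.coe_mul_of_left_le_normalizer_right R S hRS] at hwJ
    obtain ⟨r, hr, s, hs, hrs⟩ := Set.mem_mul.1 hwJ
    have hwN : (w : G) ∈ N := by
      refine mem_normalizer_of_conj_mem fun x hx => ?_
      have h := (Subgroup.mem_normalizer_iff.1 hw ⟨x, Subgroup.mem_sup_left hx⟩).1
        (Subgroup.mem_subgroupOf.2 hx)
      simpa [Subgroup.mem_subgroupOf] using h
    have hsN : s ∈ N := by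
      have h1 : r ∈ N := Subgroup.le_normalizer hr
      have := N.mul_mem (N.inv_mem h1) hwN
      rwa [← hrs, inv_mul_cancel_left] at this
    refine ⟨s, hs, fun hsR => hwR (Subgroup.mem_subgroupOf.2 (hrs ▸ R.mul_mem hr hsR)), hsN,
      fun x hx => ?_⟩
    refine ⟨R.mul_mem (conj_mem_normalizer hsN hx) (R.inv_mem hx), ?_⟩
    rw [show s * x * s⁻¹ * x⁻¹ = s * (x * s⁻¹ * x⁻¹) by group]
    exact S.mul_mem hs (conj_mem_of_closed hcl (hR hx) (S.inv_mem hs))
  -- `T ⊓ A₂` is a Sylow subgroup of `A₂`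
  obtain ⟨P, hP⟩ : ∃ P : Sylow 2 A₂, (P : Subgroup A₂).map A₂.subtype = P₁ := by
    have hp : IsPGroup 2 (P₁.subgroupOf A₂) :=
      (T.2.to_le inf_le_left).of_equiv (Subgroup.subgroupOfEquivOfLe inf_le_right).symm
    obtain ⟨P, hP⟩ := hp.exists_le_sylow
    refine ⟨P, (Subgroup.eq_of_le_of_card_ge
      (fun x (hx : x ∈ P₁) => Subgroup.mem_map.2 ⟨⟨x, hx.2⟩, hP hx, rfl⟩) ?_).symm⟩
    obtain ⟨m₀, hm₀, hc⟩ := hfull _ (P.2.map A₂.subtype)
      ((Subgroup.map_subtype_le _).trans hA₂N)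
    have hle : ((P : Subgroup A₂).map A₂.subtype).map (MulAut.conj m₀).toMonoidHom ≤ P₁ := by
      rintro _ ⟨x, hx, rfl⟩
      exact ⟨hc x hx, hA₂norm m₀ hm₀ x (Subgroup.map_subtype_le _ hx)⟩
    have := Subgroup.card_le_of_le hle
    rwa [Subgroup.card_map_of_injective (MulAut.conj m₀).injective] at this
  -- the Frattini decomposition
  obtain ⟨a, ha, hac⟩ : ∃ a ∈ A₂, ∀ x ∈ P₁, a * (m * x * m⁻¹) * a⁻¹ ∈ P₁ := by
    set Q := P₁.map (MulAut.conj m).toMonoidHom with hQ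
    have hQA : Q ≤ A₂ := by
      rintro _ ⟨x, hx, rfl⟩
      exact hA₂norm m hm x hx.2
    have hQp : IsPGroup 2 (Q.subgroupOf A₂) :=
      ((T.2.to_le inf_le_left).map _ : IsPGroup 2 Q).of_equiv
        (Subgroup.subgroupOfEquivOfLe hQA).symm
    obtain ⟨Q', hQ'⟩ := hQp.exists_le_sylow
    obtain ⟨a, ha⟩ := MulAction.exists_smul_eq A₂ Q' P
    refine ⟨a, a.2, fun x hx => ?_⟩
    have hxQ : m * x * m⁻¹ ∈ Q := ⟨x, hx, rfl⟩
    have h1 : a * ⟨m * x * m⁻¹, hQA hxQ⟩ * a⁻¹ ∈ (P : Subgroup A₂) := by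
      rw [← ha, Sylow.coe_subgroup_smul, Subgroup.mem_pointwise_smul_iff_inv_smul_mem]
      simpa [MulAut.smul_def, mul_assoc] using
        hQ' (show (⟨m * x * m⁻¹, hQA hxQ⟩ : A₂) ∈ Q.subgroupOf A₂ from hxQ)
    rw [← hP]
    exact ⟨_, h1, rfl⟩
  have hm₁ : a * m ∈ N := N.mul_mem (hA₂N ha) hm
  have hstep : Rel T S R (a * m) := by
    set R' := R ⊔ P₁ with hR'
    have hR'T : R' ≤ (T : Subgroup G) := sup_le hR inf_le_left
    have hlt : R < R' := lt_of_le_of_ne le_sup_left fun h =>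
      hvR (h ▸ Subgroup.mem_sup_right ⟨hcl.1 hvS, hvA⟩)
    refine (ih R' hR'T hlt (a * m) fun r hr => ?_).mono le_sup_left
    have hmap : R'.map (MulAut.conj (a * m)).toMonoidHom ≤ R' := by
      rw [hR', Subgroup.map_sup]
      refine sup_le_sup ?_ ?_
      · rintro _ ⟨x, hx, rfl⟩
        exact conj_mem_normalizer hm₁ hx
      · rintro _ ⟨x, hx, rfl⟩
        have := hac x hx
        rw [conj_mul_conj] at this
        exact this
    exact hR'T (hmap ⟨r, hr, rfl⟩)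
  -- the part inside `A₂`
  have hk : ∀ k ∈ A₂, ∀ r ∈ R, r ∈ cen T S → k * r * k⁻¹ ∈ cen T S := by
    set W := R ⊓ Subgroup.centralizer (U : Set G) with hW
    have hWinv : ∀ n ∈ N, ∀ r ∈ W, n * r * n⁻¹ ∈ W := by
      intro n hn r hr
      refine ⟨conj_mem_normalizer hn hr.1, Subgroup.mem_centralizer_iff.2 fun u hu => ?_⟩
      have h1 : n⁻¹ * u * n⁻¹⁻¹ ∈ U := hUinv _ (N.inv_mem hn) u hu
      rw [inv_inv] at h1
      have h := Subgroup.mem_centralizer_iff.1 hr.2 _ h1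
      calc u * (n * r * n⁻¹) = n * (n⁻¹ * u * n * r) * n⁻¹ := by group
        _ = n * (r * (n⁻¹ * u * n)) * n⁻¹ := by rw [h]
        _ = n * r * n⁻¹ * u := by group
    set A := U ⊓ Subgroup.centralizer (U : Set G) with hA
    have hAp : IsPGroup 2 A := T.2.to_le ((inf_le_left.trans inf_le_left).trans hR)
    have hodd : ∀ w ∈ A₂, Odd (orderOf w) → ∀ r ∈ W, w * r * w⁻¹ = r := by
      intro w hw ho r hr
      have hu : w * r * w⁻¹ * r⁻¹ ∈ A := by
        refine ⟨hw.2 r hr.1, ?_⟩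
        exact (Subgroup.centralizer (U : Set G)).mul_mem (hWinv w hw.1 r hr).2
          ((Subgroup.centralizer (U : Set G)).inv_mem hr.2)
      have hfix : w * (w * r * w⁻¹ * r⁻¹) * w⁻¹ = w * r * w⁻¹ * r⁻¹ := by
        refine fix_of_odd hAp (fun x hx y hy => (Subgroup.mem_centralizer_iff.1 hy.2 x hx.1))
          ho (fun x hx => ⟨hUinv w hw.1 x hx.1, Subgroup.mem_centralizer_iff.2 fun u hu => ?_⟩)
          (fun x hx hx2 => ?_) hu
        · have h1 : w⁻¹ * u * w⁻¹⁻¹ ∈ U := hUinv _ (N.inv_mem hw.1) u hu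
          rw [inv_inv] at h1
          have h := Subgroup.mem_centralizer_iff.1 hx.2 _ h1
          calc u * (w * x * w⁻¹) = w * (w⁻¹ * u * w * x) * w⁻¹ := by group
            _ = w * (x * (w⁻¹ * u * w)) * w⁻¹ := by rw [h]
            _ = w * x * w⁻¹ * u := by group
        · rcases hz x hx.1.2 hx2 with rfl | rfl
          · simp
          · rw [(hzc w).eq, mul_inv_cancel_right]
      exact mul_inv_eq_one.1 (eq_one_of_coset hAp ho hu hfix (y := r) (by group))
    set C₀ := (A₂ ⊓ Subgroup.centralizer (W : Set G)).subgroupOf A₂ with hC₀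
    haveI : C₀.Normal := ⟨fun x hx g => by
      rw [hC₀, Subgroup.mem_subgroupOf] at hx ⊢
      refine ⟨(g * x * g⁻¹).2, Subgroup.mem_centralizer_iff.2 fun r hr => ?_⟩
      have h1 := hWinv _ (N.inv_mem (hA₂N g.2)) r hr
      rw [inv_inv] at h1
      have h := Subgroup.mem_centralizer_iff.1 hx.2 _ h1
      simp only [Subgroup.coe_mul, Subgroup.coe_inv]
      calc r * ((g : G) * x * (g : G)⁻¹) = g * ((g : G)⁻¹ * r * g * x) * (g : G)⁻¹ := by group
        _ = g * (x * ((g : G)⁻¹ * r * g)) * (g : G)⁻¹ := by rw [h]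
        _ = g * x * (g : G)⁻¹ * r := by group⟩
    have hquot : IsPGroup 2 (A₂ ⧸ C₀) := by
      intro y
      obtain ⟨x, rfl⟩ := QuotientGroup.mk'_surjective C₀ y
      obtain ⟨e, o, ho, he⟩ := Nat.exists_eq_two_pow_mul_odd (orderOf_pos x).ne'
      refine ⟨e, ?_⟩
      rw [← map_pow]
      refine (QuotientGroup.eq_one_iff _).2 ?_
      rw [hC₀, Subgroup.mem_subgroupOf]
      refine ⟨(x ^ 2 ^ e).2, Subgroup.mem_centralizer_iff.2 fun r hr => ?_⟩
      have hord : Odd (orderOf ((x ^ 2 ^ e : A₂) : G)) := by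
        rw [Subgroup.orderOf_coe, orderOf_pow_of_dvd (by positivity) ⟨o, he⟩, he,
          Nat.mul_div_cancel_left _ (by positivity)]
        exact ho
      exact (mul_inv_eq_iff_eq_mul.1 (hodd _ (x ^ 2 ^ e).2 hord r hr)).symm
    intro k hk r hr hrC
    have htop : (P.mapSurjective (f := QuotientGroup.mk' C₀) (QuotientGroup.mk'_surjective C₀) :
        Subgroup (A₂ ⧸ C₀)) = ⊤ :=
      ((P.mapSurjective (f := QuotientGroup.mk' C₀) (QuotientGroup.mk'_surjective C₀)).3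
        (hquot.to_subgroup ⊤) le_top).symm
    have hkm : QuotientGroup.mk' C₀ ⟨k, hk⟩ ∈
        (P.mapSurjective (f := QuotientGroup.mk' C₀) (QuotientGroup.mk'_surjective C₀) :
          Subgroup (A₂ ⧸ C₀)) := by rw [htop]; trivial
    rw [Sylow.coe_mapSurjective] at hkm
    obtain ⟨p, hp, hpk⟩ := hkm
    have hc : ((p⁻¹ * ⟨k, hk⟩ : A₂) : G) ∈ A₂ ⊓ Subgroup.centralizer (W : Set G) :=
      Subgroup.mem_subgroupOf.1 (QuotientGroup.eq.1 hpk)
    simp only [Subgroup.coe_mul, Subgroup.coe_inv] at hc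
    have hrW : r ∈ W := ⟨hr, Subgroup.mem_centralizer_iff.2 fun u hu =>
      Subgroup.mem_centralizer_iff.1 hrC.2 u hu.2⟩
    have hfix : k * r * k⁻¹ = p * r * (p : G)⁻¹ := by
      have h := Subgroup.mem_centralizer_iff.1 hc.2 r hrW
      calc k * r * k⁻¹ = (p : G) * (((p : G)⁻¹ * k) * r) * k⁻¹ := by group
        _ = (p : G) * (r * ((p : G)⁻¹ * k)) * k⁻¹ := by rw [h]
        _ = _ := by group
    rw [hfix]
    have hpT : (p : G) ∈ (T : Subgroup G) := by
      have : (p : G) ∈ P₁ := hP ▸ ⟨p, hp, rfl⟩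
      exact this.1
    exact ⟨(T : Subgroup G).mul_mem ((T : Subgroup G).mul_mem hpT hrC.1)
        ((T : Subgroup G).inv_mem hpT),
      conj_mem_centralizer (sylow_le_normalizer hcl hpT) hrC.2⟩
  have hrelA : Rel T S R a⁻¹ := by
    refine ⟨1, one_mem _, fun r hr => ⟨?_, fun h => hk _ (A₂.inv_mem ha) r hr h, fun h => ?_⟩⟩
    · rw [one_mul, inv_one, mul_one]
      have h1 := ((hmemA _).1 (A₂.inv_mem ha)).2 r hr
      have h2 := conj_mem_of_closed hcl (inv_mem (hR hr)) h1.2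
      convert h2 using 1
      group
    · have hmem : a⁻¹ * r * a⁻¹⁻¹ ∈ R := conj_mem_normalizer (hA₂N (A₂.inv_mem ha)) hr
      have := hk a ha _ hmem h
      rwa [show a * (a⁻¹ * r * a⁻¹⁻¹) * a⁻¹ = r by group] at this
  have := Rel.trans hstep hrelA fun r hr => conj_mem_normalizer hm₁ hr
  rwa [inv_mul_cancel_left] at this

/-- Every fusion inside the Sylow subgroup is related to the normalizer of `S`. -/
theorem rel_all (hcl : IsStronglyClosed S (T : Subgroup G)) {z : G}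
    (hz : ∀ s ∈ S, s * s = 1 → s = 1 ∨ s = z) (hzc : ∀ x : G, Commute x z)
    (R : Subgroup G) (hR : R ≤ (T : Subgroup G)) (g : G)
    (hg : ∀ r ∈ R, g * r * g⁻¹ ∈ (T : Subgroup G)) : Rel T S R g := by
  classical
  haveI : Fact (Nat.Prime 2) := ⟨Nat.prime_two⟩
  induction hn : Nat.card G - Nat.card R using Nat.strong_induction_on generalizing R g with
  | _ n ih =>
  by_cases hSR : S ≤ R
  · exact rel_of_le hcl hR hSR hg
  have hrec : ∀ R₁ : Subgroup G, R₁ ≤ (T : Subgroup G) → Nat.card R < Nat.card R₁ →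
      ∀ g₁ : G, (∀ r ∈ R₁, g₁ * r * g₁⁻¹ ∈ (T : Subgroup G)) → Rel T S R₁ g₁ := by
    intro R₁ h1 h2 g₁ h3
    have := Subgroup.card_le_card_group R₁
    exact ih (Nat.card G - Nat.card R₁) (by omega) R₁ h1 g₁ h3 rfl
  -- the fully normalised conjugate
  set N := Subgroup.normalizer (R : Set G) with hN
  obtain ⟨P⟩ : Nonempty (Sylow 2 N) := inferInstance
  have hRP : ∀ r (hr : r ∈ R), (⟨r, Subgroup.le_normalizer hr⟩ : N) ∈ (P : Subgroup N) := by
    intro r hr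
    haveI : (R.subgroupOf N).Normal :=
      (Subgroup.normal_subgroupOf_iff_le_normalizer Subgroup.le_normalizer).2 le_rfl
    exact IsPGroup.le_sylow_of_normal ((T.2.to_le hR).of_equiv
      (Subgroup.subgroupOfEquivOfLe Subgroup.le_normalizer).symm) P
      (Subgroup.mem_subgroupOf.2 hr)
  obtain ⟨x, -, hx⟩ := exists_conj_le (T := T) (H := ⊤) le_top (P.2.map N.subtype) le_top
  set R' := R.map (MulAut.conj x).toMonoidHom with hR'
  have hR'mem : ∀ r ∈ R, x * r * x⁻¹ ∈ R' := fun r hr => ⟨r, hr, rfl⟩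
  have hR'T : R' ≤ (T : Subgroup G) := by
    rintro _ ⟨r, hr, rfl⟩
    exact hx r ⟨_, hRP r hr, rfl⟩
  have hcard : Nat.card R' = Nat.card R := by
    rw [hR', Subgroup.card_map_of_injective (MulAut.conj x).injective]
  have hN' : ∀ y, y ∈ Subgroup.normalizer (R' : Set G) → x⁻¹ * y * x ∈ N := by
    intro y hy
    refine mem_normalizer_of_conj_mem fun r hr => ?_
    obtain ⟨r', hr', he⟩ := (Subgroup.mem_normalizer_iff.1 hy _).1 (hR'mem r hr)
    change x * r' * x⁻¹ = y * (x * r * x⁻¹) * y⁻¹ at he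
    rw [show x⁻¹ * y * x * r * (x⁻¹ * y * x)⁻¹ = x⁻¹ * (y * (x * r * x⁻¹) * y⁻¹) * x by group, ← he,
      show x⁻¹ * (x * r' * x⁻¹) * x = r' by group]
    exact hr'
  have hfull : ∀ Q : Subgroup G, IsPGroup 2 Q → Q ≤ Subgroup.normalizer (R' : Set G) →
      ∃ m ∈ Subgroup.normalizer (R' : Set G), ∀ y ∈ Q, m * y * m⁻¹ ∈ (T : Subgroup G) := by
    intro Q hQ hQN
    set Q₀ := Q.map (MulAut.conj x⁻¹).toMonoidHom with hQ₀
    have hQ₀N : Q₀ ≤ N := by
      rintro _ ⟨y, hy, rfl⟩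
      simpa using hN' y (hQN hy)
    have hQ₀p : IsPGroup 2 (Q₀.subgroupOf N) :=
      (hQ.map _ : IsPGroup 2 Q₀).of_equiv (Subgroup.subgroupOfEquivOfLe hQ₀N).symm
    obtain ⟨Q₁, hQ₁⟩ := hQ₀p.exists_le_sylow
    obtain ⟨m, hm⟩ := MulAction.exists_smul_eq N Q₁ P
    refine ⟨x * m * x⁻¹, mem_normalizer_of_conj_mem ?_, fun y hy => ?_⟩
    · rintro _ ⟨r, hr, rfl⟩
      refine ⟨(m : G) * r * (m : G)⁻¹, conj_mem_normalizer m.2 hr, ?_⟩
      simp [mul_assoc]
    · have hyQ : x⁻¹ * y * x⁻¹⁻¹ ∈ Q₀ := ⟨y, hy, rfl⟩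
      have h1 : m * ⟨x⁻¹ * y * x⁻¹⁻¹, hQ₀N hyQ⟩ * m⁻¹ ∈ (P : Subgroup N) := by
        rw [← hm, Sylow.coe_subgroup_smul, Subgroup.mem_pointwise_smul_iff_inv_smul_mem]
        simpa [MulAut.smul_def, mul_assoc] using
          hQ₁ (show (⟨x⁻¹ * y * x⁻¹⁻¹, hQ₀N hyQ⟩ : N) ∈ Q₀.subgroupOf N from hyQ)
      have := hx _ ⟨_, h1, rfl⟩
      simpa [mul_assoc] using this
  have hnorm : ∀ m ∈ Subgroup.normalizer (R' : Set G), Rel T S R' m := by
    intro m hm
    by_cases hSR' : S ≤ R'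
    · exact rel_of_le hcl hR'T hSR' fun r hr => hR'T (conj_mem_normalizer hm hr)
    · refine rel_normalizer hcl hz hzc hR'T hSR' hfull (fun R₁ h1 h2 => hrec R₁ h1 ?_) hm
      rw [← hcard]
      exact card_lt_of_lt' h2
  -- every conjugation onto the fully normalised conjugate
  have hkey : ∀ R₀ : Subgroup G, R₀ ≤ (T : Subgroup G) → Nat.card R₀ = Nat.card R → ¬ S ≤ R₀ →
      ∀ y : G, (∀ r ∈ R₀, y * r * y⁻¹ ∈ R') → Rel T S R₀ y := by
    intro R₀ h0 hc0 hS0 y hy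
    have hmap : R₀.map (MulAut.conj y).toMonoidHom = R' := by
      refine Subgroup.eq_of_le_of_card_ge ?_ ?_
      · rintro _ ⟨r, hr, rfl⟩; exact hy r hr
      · rw [hcard, Subgroup.card_map_of_injective (MulAut.conj y).injective, hc0]
    set M := (T : Subgroup G) ⊓ Subgroup.normalizer (R₀ : Set G) with hM
    have hlt : R₀ < M := by
      haveI : Group.IsNilpotent (T : Subgroup G) := T.2.isNilpotent
      have hne : R₀.subgroupOf (T : Subgroup G) < ⊤ := lt_top_iff_ne_top.2 fun h =>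
        hS0 (hcl.1.trans (Subgroup.subgroupOf_eq_top.1 h))
      obtain ⟨w, hw, hwR⟩ := SetLike.exists_of_lt
        (Group.normalizerCondition_of_isNilpotent _ hne)
      refine lt_of_le_of_ne (le_inf h0 Subgroup.le_normalizer) fun h => hwR ?_
      rw [Subgroup.mem_subgroupOf, h]
      refine ⟨w.2, mem_normalizer_of_conj_mem fun r hr => ?_⟩
      have h := (Subgroup.mem_normalizer_iff.1 hw ⟨r, h0 hr⟩).1 (Subgroup.mem_subgroupOf.2 hr)
      simpa [Subgroup.mem_subgroupOf] using h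
    set M' := M.map (MulAut.conj y).toMonoidHom with hM'
    have hM'N : M' ≤ Subgroup.normalizer (R' : Set G) := by
      rintro _ ⟨w, hw, rfl⟩
      refine mem_normalizer_of_conj_mem fun r hr => ?_
      rw [← hmap] at hr ⊢
      obtain ⟨r₀, hr₀, rfl⟩ := hr
      exact ⟨w * r₀ * w⁻¹, conj_mem_normalizer hw.2 hr₀, by simp [mul_assoc]⟩
    obtain ⟨m, hm, hmc⟩ := hfull M' ((T.2.to_le inf_le_left).map _) hM'N
    have h1 : Rel T S R₀ (m * y) := by
      refine (hrec M inf_le_left (hc0 ▸ card_lt_of_lt' hlt) (m * y) fun r hr => ?_).mono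
        hlt.le
      rw [← conj_mul_conj]
      exact hmc _ ⟨r, hr, rfl⟩
    have h2 : Rel T S R' m⁻¹ := hnorm _ (inv_mem hm)
    have := h1.trans h2 fun r hr => by
      rw [← conj_mul_conj]; exact conj_mem_normalizer hm (hy r hr)
    rwa [inv_mul_cancel_left] at this
  set Rg := R.map (MulAut.conj g).toMonoidHom with hRg
  have hRgT : Rg ≤ (T : Subgroup G) := by
    rintro _ ⟨r, hr, rfl⟩; exact hg r hr
  have hSRg : ¬ S ≤ Rg := by
    intro h
    apply hSR
    intro s hs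
    obtain ⟨r, hr, rfl⟩ := h hs
    have := hcl.2 _ hs g⁻¹ (by simpa [mul_assoc] using hR hr)
    have hmap : S.map (MulAut.conj g⁻¹).toMonoidHom ≤ S := by
      rintro _ ⟨s', hs', rfl⟩
      obtain ⟨r', hr', rfl⟩ := h hs'
      exact hcl.2 _ hs' g⁻¹ (by simpa [mul_assoc] using hR hr')
    have hmapR : S.map (MulAut.conj g⁻¹).toMonoidHom ≤ R := by
      rintro _ ⟨s', hs', rfl⟩
      obtain ⟨r', hr', rfl⟩ := h hs'
      simpa [mul_assoc] using hr'
    have heq : S.map (MulAut.conj g⁻¹).toMonoidHom = S := Subgroup.eq_of_le_of_card_ge hmap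
      (by rw [Subgroup.card_map_of_injective (MulAut.conj g⁻¹).injective])
    rw [heq] at hmapR
    exact hmapR hs
  have e1 : Rel T S R x := hkey R hR rfl hSR x hR'mem
  have e2 : Rel T S Rg (x * g⁻¹) := by
    refine hkey Rg hRgT (Subgroup.card_map_of_injective (MulAut.conj g).injective) hSRg _ ?_
    rintro _ ⟨r, hr, rfl⟩
    simpa [mul_assoc] using hR'mem r hr
  have e3 : Rel T S R' (x * g⁻¹)⁻¹ := by
    refine e2.symm ?_
    rintro _ ⟨r, hr, rfl⟩
    exact ⟨r, hr, by simp [mul_assoc]⟩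
  have := e1.trans e3 hR'mem
  rwa [show (x * g⁻¹)⁻¹ * x = g by group] at this

/-- Fusion is induced modulo `S` by its normalizer. -/
theorem exists_normalizer_congr (hcl : IsStronglyClosed S (T : Subgroup G)) {z : G}
    (hz : ∀ s ∈ S, s * s = 1 → s = 1 ∨ s = z) (hzc : ∀ x : G, Commute x z) {x g : G}
    (hx : x ∈ (T : Subgroup G)) (hg : g * x * g⁻¹ ∈ (T : Subgroup G)) :
    ∃ n ∈ Subgroup.normalizer (S : Set G), (n * x * n⁻¹)⁻¹ * (g * x * g⁻¹) ∈ S := by
  obtain ⟨n, hn, h⟩ := rel_all hcl hz hzc (Subgroup.zpowers x) (Subgroup.zpowers_le.2 hx) g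
    fun r hr => by
      obtain ⟨k, rfl⟩ := Subgroup.mem_zpowers_iff.1 hr
      rw [← conj_zpow]; exact zpow_mem hg k
  exact ⟨n, hn, (h x (Subgroup.mem_zpowers x)).1⟩

/-- The centralizer of `S` in the Sylow subgroup is strongly closed. -/
theorem cen_closed (hcl : IsStronglyClosed S (T : Subgroup G)) {z : G}
    (hz : ∀ s ∈ S, s * s = 1 → s = 1 ∨ s = z) (hzc : ∀ x : G, Commute x z) :
    IsStronglyClosed (cen T S) (T : Subgroup G) := by
  refine ⟨inf_le_left, fun x hx g hg => ?_⟩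
  obtain ⟨n, -, h⟩ := rel_all hcl hz hzc (Subgroup.zpowers x) (Subgroup.zpowers_le.2 hx.1) g
    fun r hr => by
      obtain ⟨k, rfl⟩ := Subgroup.mem_zpowers_iff.1 hr
      rw [← conj_zpow]; exact zpow_mem hg k
  exact (h x (Subgroup.mem_zpowers x)).2.1 hx

end CfsgLib.StrongClosure34
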