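import Mathlib
import Cfsg.Agent.Eq.Def_TwoFusion
import Cfsg.Prelude.Def_TwoFusion
import Cfsg.Agent.IsolatedPoint.Central
import Cfsg.Agent.StronglyEmbedded.Basic

/-!
Elementary tools for strongly closed 2-subgroups: conjugation into a Sylow 2-subgroup inside an
overgroup, traces on normal subgroups, and odd order elements acting on 2-groups.
-/

set_option autoImplicit false

namespace CfsgLib.StrongClosure34

open Cfsg

variable {G : Type*} [Group G]

theorem conj_mul_conj (a b x : G) : a * (b * x * b⁻¹) * a⁻¹ = a * b * x * (a * b)⁻¹ := by group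

theorem isPGroup_zpowers_of_pow {x : G} {k : ℕ} (hx : x ^ 2 ^ k = 1) :
    IsPGroup 2 (Subgroup.zpowers x) := by
  rintro ⟨y, hy⟩
  obtain ⟨m, rfl⟩ := Subgroup.mem_zpowers_iff.1 hy
  refine ⟨k, Subtype.ext ?_⟩
  show (x ^ m) ^ 2 ^ k = 1
  rw [← zpow_natCast, ← zpow_mul, mul_comm m, zpow_mul, zpow_natCast, hx, one_zpow]

theorem isPGroup_zpowers_of_mul_self {x : G} (hx : x * x = 1) :
    IsPGroup 2 (Subgroup.zpowers x) :=
  isPGroup_zpowers_of_pow (k := 1) (by rw [pow_one, sq, hx])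

theorem exists_pow_two_pow {P : Subgroup G} (hP : IsPGroup 2 P) {x : G} (hx : x ∈ P) :
    ∃ k : ℕ, x ^ 2 ^ k = 1 := by
  obtain ⟨k, hk⟩ := hP ⟨x, hx⟩
  exact ⟨k, congrArg Subtype.val hk⟩

theorem exists_orderOf_two_pow {P : Subgroup G} (hP : IsPGroup 2 P) {x : G} (hx : x ∈ P)
    (hx1 : x ≠ 1) : ∃ m : ℕ, orderOf (x ^ m) = 2 := by
  obtain ⟨n, hn⟩ := CfsgLib.IsolatedPoint.orderOf_eq_two_pow hP hx
  rcases n with _ | n
  · exact absurd (orderOf_eq_one_iff.mp (by simpa using hn)) hx1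
  refine ⟨2 ^ n, ?_⟩
  rw [orderOf_pow_of_dvd (by positivity) (hn ▸ Dvd.intro _ (pow_succ 2 n).symm), hn, pow_succ,
    Nat.mul_div_cancel_left _ (by positivity)]

/-- An element of a 2-subgroup of odd order is trivial. -/
theorem eq_one_of_two_of_odd {P : Subgroup G} (hP : IsPGroup 2 P) {x : G} (hx : x ∈ P)
    (hodd : Odd (orderOf x)) : x = 1 := by
  obtain ⟨n, hn⟩ := CfsgLib.IsolatedPoint.orderOf_eq_two_pow hP hx
  refine orderOf_eq_one_iff.mp (Nat.eq_one_of_dvd_coprimes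
    (Nat.Coprime.pow_left n (Nat.coprime_two_left.2 hodd)) (hn ▸ dvd_rfl) dvd_rfl)

/-- If an element of odd order moves `y` into the coset of a fixed 2-element, it fixes `y`. -/
theorem eq_one_of_coset {P : Subgroup G} (hP : IsPGroup 2 P) {w y v : G} (hw : Odd (orderOf w))
    (hv : v ∈ P) (hwv : w * v * w⁻¹ = v) (h : w * y * w⁻¹ = v * y) : v = 1 := by
  have hpow : ∀ m : ℕ, w ^ m * y * (w ^ m)⁻¹ = v ^ m * y := by
    intro m
    induction m with
    | zero => simp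
    | succ m ih =>
      have hc : Commute w v := CfsgLib.StronglyEmbedded.commute_iff_conj_eq.2 hwv
      rw [pow_succ', show w * w ^ m * y * (w * w ^ m)⁻¹ = w * (w ^ m * y * (w ^ m)⁻¹) * w⁻¹ by group,
        ih, show w * (v ^ m * y) * w⁻¹ = (w * v ^ m * w⁻¹) * (w * y * w⁻¹) by group, h,
        (hc.pow_right m).eq, mul_inv_cancel_right, ← mul_assoc, ← pow_succ]
  have h1 := hpow (orderOf w)
  rw [pow_orderOf_eq_one, one_mul, inv_one, mul_one, right_eq_mul] at h1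
  exact eq_one_of_two_of_odd hP hv (hw.of_dvd_nat (orderOf_dvd_of_pow_eq_one h1))

/-- An element of odd order fixing the elements of order at most two of an abelian 2-group which it
normalises centralises the group. -/
theorem fix_of_odd {A : Subgroup G} (hA : IsPGroup 2 A) (hc : ∀ x ∈ A, ∀ y ∈ A, x * y = y * x)
    {w : G} (hw : Odd (orderOf w)) (hn : ∀ x ∈ A, w * x * w⁻¹ ∈ A)
    (hz : ∀ x ∈ A, x * x = 1 → w * x * w⁻¹ = x) {x : G} (hx : x ∈ A) : w * x * w⁻¹ = x := by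
  suffices h : ∀ k : ℕ, ∀ x ∈ A, x ^ 2 ^ k = 1 → w * x * w⁻¹ = x by
    obtain ⟨k, hk⟩ := exists_pow_two_pow hA hx
    exact h k x hx hk
  intro k
  induction k with
  | zero => intro x _ h; rw [pow_zero, pow_one] at h; rw [h]; group
  | succ k ih =>
    intro x hx h
    have h2 : w * (x * x) * w⁻¹ = x * x :=
      ih _ (A.mul_mem hx hx) (by rw [← sq, ← pow_mul, ← pow_succ']; exact h)
    set v := w * x * w⁻¹ * x⁻¹ with hv
    have hvA : v ∈ A := A.mul_mem (hn x hx) (A.inv_mem hx)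
    have hv2 : v * v = 1 := by
      have hcx : Commute (w * x * w⁻¹) x⁻¹ := hc _ (hn x hx) _ (A.inv_mem hx)
      calc v * v = (w * x * w⁻¹) * (x⁻¹ * (w * x * w⁻¹)) * x⁻¹ := by rw [hv]; group
        _ = (w * (x * x) * w⁻¹) * (x * x)⁻¹ := by rw [← hcx.eq]; group
        _ = 1 := by rw [h2, mul_inv_cancel]
    have h1 := eq_one_of_coset hA hw hvA (hz v hvA hv2) (y := x) (by rw [hv]; group)
    rw [hv] at h1
    exact mul_inv_eq_one.1 h1

variable [Finite G]

/-- Sylow's theorem inside an overgroup of a Sylow 2-subgroup. -/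
theorem exists_conj_le {T : Sylow 2 G} {H P : Subgroup G} (hT : (T : Subgroup G) ≤ H)
    (hP : IsPGroup 2 P) (hPH : P ≤ H) :
    ∃ h ∈ H, ∀ x ∈ P, h * x * h⁻¹ ∈ (T : Subgroup G) := by
  haveI : Fact (Nat.Prime 2) := ⟨Nat.prime_two⟩
  have hP' : IsPGroup 2 (P.subgroupOf H) := hP.of_equiv (Subgroup.subgroupOfEquivOfLe hPH).symm
  obtain ⟨R, hR⟩ := hP'.exists_le_sylow
  obtain ⟨h, hh⟩ := MulAction.exists_smul_eq H R (T.subtype hT)
  refine ⟨h, h.2, fun x hx => ?_⟩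
  have h1 : h * ⟨x, hPH hx⟩ * h⁻¹ ∈ (T.subtype hT : Subgroup H) := by
    rw [← hh, Sylow.coe_subgroup_smul, Subgroup.mem_pointwise_smul_iff_inv_smul_mem]
    simpa [MulAut.smul_def, mul_assoc] using hR (show (⟨x, hPH hx⟩ : H) ∈ P.subgroupOf H from hx)
  rw [Sylow.coe_subtype] at h1
  simpa [Subgroup.mem_subgroupOf] using h1

theorem exists_conj_mem {T : Sylow 2 G} {H : Subgroup G} (hT : (T : Subgroup G) ≤ H) {x : G}
    (hx : x * x = 1) (hxH : x ∈ H) : ∃ h ∈ H, h * x * h⁻¹ ∈ (T : Subgroup G) := by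
  obtain ⟨h, hh, hc⟩ := exists_conj_le hT (isPGroup_zpowers_of_mul_self hx)
    (Subgroup.zpowers_le.2 hxH)
  exact ⟨h, hh, hc x (Subgroup.mem_zpowers x)⟩

/-- The trace of a Sylow 2-subgroup on a normal subgroup is a Sylow 2-subgroup of it. -/
theorem exists_sylow_normal (T : Sylow 2 G) (N : Subgroup G) [N.Normal] :
    ∃ Q : Sylow 2 N, (Q : Subgroup N).map N.subtype = (T : Subgroup G) ⊓ N := by
  haveI : Fact (Nat.Prime 2) := ⟨Nat.prime_two⟩
  have hp : IsPGroup 2 (((T : Subgroup G) ⊓ N).subgroupOf N) :=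
    (T.2.to_le inf_le_left).of_equiv (Subgroup.subgroupOfEquivOfLe inf_le_right).symm
  obtain ⟨Q, hQ⟩ := hp.exists_le_sylow
  exact ⟨Q, CfsgLib.IsolatedPoint.inf_normal_eq_sylow T N Q fun x hx =>
    ⟨⟨x, hx.2⟩, hQ hx, rfl⟩⟩

/-- The Frattini argument. -/
theorem exists_frattini (T : Sylow 2 G) (N : Subgroup G) [N.Normal] (g : G) :
    ∃ x ∈ N, ∃ n : G, g = x * n ∧
      ∀ y, y ∈ (T : Subgroup G) ⊓ N → n * y * n⁻¹ ∈ (T : Subgroup G) ⊓ N := by
  haveI : Fact (Nat.Prime 2) := ⟨Nat.prime_two⟩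
  obtain ⟨Q, hQ⟩ := exists_sylow_normal T N
  have hg : g ∈ N ⊔ Subgroup.normalizer ((((T : Subgroup G) ⊓ N) : Subgroup G) : Set G) := by
    rw [← hQ, sup_comm, Sylow.normalizer_sup_eq_top]; trivial
  obtain ⟨x, hx, n, hn, rfl⟩ := Subgroup.mem_sup_of_normal_left.1 hg
  exact ⟨x, hx, n, rfl, fun y hy => (Subgroup.mem_normalizer_iff.1 hn y).1 hy⟩

end CfsgLib.StrongClosure34
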